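import Cfsg.Agent.H459.Inv.Tools

/-!
# Transfer of `NS` from a section (helper396; task 3500 of helper255, S3830)

* `ns_of_sec` : `x` acts on `N / ker f = S` as `x'`, the involution `y` normalises `N` and acts on `S` as `d`. If `x'` and
  a conjugate of `d` under an inner automorphism of `S` generate a non-solvable group, then `NS x`.
-/

set_option autoImplicit false

namespace Cfsg.Agent.H396.Inv

open Subgroup Cfsg.Agent.H459.Inv

variable {K S : Type*} [Group K] [Finite K] [Group S]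

/-- pairs of automorphisms compatible with `f : N → S` -/
def Comp (N : Subgroup K) (f : N →* S) : Subgroup (MulAut K × MulAut S) where
  carrier := {z | ∀ n : N, ∃ h : z.1 n ∈ N, f ⟨z.1 n, h⟩ = z.2 (f n)}
  one_mem' := fun n => ⟨n.2, rfl⟩
  mul_mem' := by
    rintro z w hz hw n
    obtain ⟨h1, h2⟩ := hw n
    obtain ⟨h3, h4⟩ := hz ⟨w.1 n, h1⟩
    refine ⟨h3, ?_⟩
    show f ⟨z.1 (w.1 n), h3⟩ = z.2 (w.2 (f n))
    rw [← h2]
    exact h4
  inv_mem' := by
    rintro z hz n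
    have h1 : N.map z.1.toMonoidHom = N := by
      apply Subgroup.eq_of_le_of_card_ge
      · rintro _ ⟨m, hm, rfl⟩
        exact (hz ⟨m, hm⟩).1
      · rw [Subgroup.card_map_of_injective (f := z.1.toMonoidHom) z.1.injective]
    obtain ⟨m, hm, hmn⟩ : (n : K) ∈ N.map z.1.toMonoidHom := by rw [h1]; exact n.2
    have h2 : (z⁻¹).1 (n : K) = m := by
      rw [← hmn]
      show (z.1⁻¹) (z.1 m) = m
      rw [← MulAut.mul_apply, inv_mul_cancel]
      rfl
    have h3 : (z⁻¹).1 (n : K) ∈ N := by rw [h2]; exact hm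
    refine ⟨h3, ?_⟩
    obtain ⟨h4, h5⟩ := hz ⟨m, hm⟩
    have h6 : (⟨z.1 m, h4⟩ : N) = n := Subtype.ext hmn
    have h7 : (⟨(z⁻¹).1 (n : K), h3⟩ : N) = ⟨m, hm⟩ := Subtype.ext h2
    rw [h7, ← h6, h5]
    show _ = (z.2⁻¹) (z.2 (f ⟨m, hm⟩))
    rw [← MulAut.mul_apply, inv_mul_cancel]
    rfl

/-- **Transfer of `NS` from a section.** -/
theorem ns_of_sec (x : MulAut K) (N : Subgroup K) (hx : ∀ a ∈ N, x a ∈ N) (f : N →* S)
    (hf : Function.Surjective f) (x' : MulAut S) (hxf : ∀ a : N, f ⟨x a, hx a a.2⟩ = x' (f a)) (y : K) (hy : orderOf y = 2)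
    (hyN : ∀ a ∈ N, y * a * y⁻¹ ∈ N) (d : MulAut S) (hd : ∀ a : N, f ⟨y * a * y⁻¹, hyN a a.2⟩ = d (f a)) {s : S}
    (hns : ¬ Group.IsSolvable ↥(closure ({x', MulAut.conj s * d * (MulAut.conj s)⁻¹} : Set (MulAut S)))) : NS x := by
  obtain ⟨a, ha⟩ := hf s
  refine ⟨a * y * (a : K)⁻¹, ?_, fun hs => hns ?_⟩
  · rw [← MulAut.conj_apply, MulEquiv.orderOf_eq, hy]
  obtain ⟨Y, hY⟩ : ∃ Y : MulAut K, Y = MulAut.conj (a * y * (a : K)⁻¹) := ⟨_, rfl⟩
  obtain ⟨D, hD⟩ : ∃ D : MulAut S, D = MulAut.conj s * d * (MulAut.conj s)⁻¹ := ⟨_, rfl⟩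
  rw [← hY] at hs
  rw [← hD]
  have hxc : (x, x') ∈ Comp N f := fun n => ⟨hx n n.2, hxf n⟩
  have hYc : (Y, D) ∈ Comp N f := by
    intro n
    have h1 : Y n = a * (y * ((a : K)⁻¹ * n * a) * y⁻¹) * (a : K)⁻¹ := by
      rw [hY, MulAut.conj_apply]
      group
    have h2 : y * ((a : K)⁻¹ * n * a) * y⁻¹ ∈ N := hyN _ (N.mul_mem (N.mul_mem (N.inv_mem a.2) n.2) a.2)
    have h3 : Y n ∈ N := by
      rw [h1]
      exact N.mul_mem (N.mul_mem a.2 h2) (N.inv_mem a.2)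
    refine ⟨h3, ?_⟩
    have h4 : (⟨Y n, h3⟩ : N) = a * ⟨y * ((a⁻¹ * n * a : N) : K) * y⁻¹, hyN _ (a⁻¹ * n * a).2⟩ * a⁻¹ := Subtype.ext h1
    show f ⟨Y n, h3⟩ = D (f n)
    have h5 : f (a⁻¹ * n * a) = s⁻¹ * f n * s := by
      rw [map_mul f (a⁻¹ * n) a, map_mul f a⁻¹ n, map_inv, ha]
    rw [h4, map_mul, map_mul, hd, hD, map_inv, ha, h5]
    rw [MulAut.mul_apply, MulAut.mul_apply, MulAut.conj_apply, ← map_inv, MulAut.conj_apply, inv_inv]
  have hP : closure ({(x, x'), (Y, D)} : Set (MulAut K × MulAut S)) ≤ Comp N f := by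
    rw [closure_le]
    rintro z (rfl | rfl)
    · exact hxc
    · exact hYc
  obtain ⟨P, hPdef⟩ : ∃ P : Subgroup (MulAut K × MulAut S), P = closure {(x, x'), (Y, D)} := ⟨_, rfl⟩
  have h1 : P.map (MonoidHom.fst (MulAut K) (MulAut S)) = closure ({x, Y} : Set (MulAut K)) := by
    rw [hPdef, MonoidHom.map_closure, Set.image_pair]
    rfl
  have h2 : P.map (MonoidHom.snd (MulAut K) (MulAut S)) = closure ({x', D} : Set (MulAut S)) := by
    rw [hPdef, MonoidHom.map_closure, Set.image_pair]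
    rfl
  have h3 : Group.IsSolvable P := by
    rw [← h1] at hs
    have h4 : Function.Injective ((MonoidHom.fst (MulAut K) (MulAut S)).subgroupMap P) := by
      rw [injective_iff_map_eq_one]
      rintro ⟨⟨φ, ψ⟩, hz⟩ hz1
      have h5 : φ = 1 := congrArg Subtype.val hz1
      have h6 : ψ = 1 := by
        apply MulEquiv.ext
        intro t
        obtain ⟨n, rfl⟩ := hf t
        obtain ⟨h7, h8⟩ := hP (hPdef ▸ hz) n
        have h9 : (⟨φ n, h7⟩ : N) = n := Subtype.ext (DFunLike.congr_fun h5 (n : K))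
        have h10 : f ⟨φ n, h7⟩ = ψ (f n) := h8
        rw [← h10, h9]
        rfl
      exact Subtype.ext (Prod.ext h5 h6)
    exact Group.isSolvable_of_isSolvable_injective h4
  rw [← h2]
  exact Cfsg.Agent.SignalizersComponents.ComponentExists.isSolvable_map h3 _

end Cfsg.Agent.H396.Inv
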